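import Cfsg.Agent.SporChar.HJStepC

/-! Generators and relations for an involution centralizer `2^(1+4).S₄`. -/

set_option autoImplicit false
set_option maxRecDepth 100000
set_option linter.unusedSimpArgs false
set_option maxHeartbeats 1000000

namespace Cfsg.Lib.Spor.HJ

open Subgroup Bulk PK WF

/-- common relators -/
def rS4 : List (List ℕ) := rQ ++ [[6, 1, 8, 1, 7], [6, 3, 8, 2, 7], [6, 2, 8, 3, 7], [6, 4, 8, 4, 7], [6, 5, 8, 5, 7], [6, 1, 10, 1, 9], [6, 2,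
    10, 2, 9], [6, 4, 10, 3, 9], [6, 3, 10, 4, 9], [6, 5, 10, 5, 9], [6, 1, 12, 1, 11], [6, 2, 12, 2, 11], [6,
    3, 12, 3, 11], [6, 5, 12, 4, 11], [6, 4, 12, 5, 11], [6, 8, 6, 7], [6, 10, 6, 9], [6, 12, 6, 11], [9, 7,
    9, 7, 9, 7], [11, 9, 11, 9, 11, 9]]

/-- relators of one of the four types -/
def r00 : List (List ℕ) := rS4 ++ [[7, 7], [9, 9], [11, 11], [11, 7, 11, 7]]

/-- relators of one of the four types -/
def r01 : List (List ℕ) := rS4 ++ [[7, 7], [9, 9], [11, 11], [6, 11, 7, 11, 7]]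

/-- relators of one of the four types -/
def r10 : List (List ℕ) := rS4 ++ [[6, 7, 7], [6, 9, 9], [6, 11, 11], [11, 7, 11, 7]]

/-- relators of one of the four types -/
def r11 : List (List ℕ) := rS4 ++ [[6, 7, 7], [6, 9, 9], [6, 11, 11], [6, 11, 7, 11, 7]]

variable {G : Type*} [Group G] {T : Tup G}

theorem satB_of (hQ : Sat T.gQ 7 iM rQ)
    (h : T.u * T.A * T.u⁻¹ * T.A * T.z = 1 ∧
      T.u * T.B * T.u⁻¹ * T.C * T.z = 1 ∧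
      T.u * T.C * T.u⁻¹ * T.B * T.z = 1 ∧
      T.u * T.D * T.u⁻¹ * T.D * T.z = 1 ∧
      T.u * T.E * T.u⁻¹ * T.E * T.z = 1 ∧
      T.s * T.A * T.s⁻¹ * T.A * T.z = 1 ∧
      T.s * T.B * T.s⁻¹ * T.B * T.z = 1 ∧
      T.s * T.C * T.s⁻¹ * T.D * T.z = 1 ∧
      T.s * T.D * T.s⁻¹ * T.C * T.z = 1 ∧
      T.s * T.E * T.s⁻¹ * T.E * T.z = 1 ∧
      T.t * T.A * T.t⁻¹ * T.A * T.z = 1 ∧
      T.t * T.B * T.t⁻¹ * T.B * T.z = 1 ∧
      T.t * T.C * T.t⁻¹ * T.C * T.z = 1 ∧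
      T.t * T.D * T.t⁻¹ * T.E * T.z = 1 ∧
      T.t * T.E * T.t⁻¹ * T.D * T.z = 1 ∧
      T.u * T.z * T.u⁻¹ * T.z = 1 ∧
      T.s * T.z * T.s⁻¹ * T.z = 1 ∧
      T.t * T.z * T.t⁻¹ * T.z = 1 ∧
      T.u * T.s * T.u * T.s * T.u * T.s = 1 ∧
      T.s * T.t * T.s * T.t * T.s * T.t = 1) : Sat T.gN 13 iN rS4 := by
  refine Sat.append ⟨rfl, fun l hl => ?_, (Sat.congr' (g' := T.gN) (k' := 7) (ι' := iM) hQ
    (fun l hl => by interval_cases l <;> rfl) (by decide +kernel)).rel⟩ ?_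
  · interval_cases l
    exacts [inv_one.symm, hQ.inv 1 (by omega), hQ.inv 2 (by omega), hQ.inv 3 (by omega),
      hQ.inv 4 (by omega), hQ.inv 5 (by omega), hQ.inv 6 (by omega), rfl, (inv_inv _).symm,
      rfl, (inv_inv _).symm, rfl, (inv_inv _).symm]
  · simp only [List.forall_mem_cons, wv_cons, wv_nil, one_mul, List.not_mem_nil, IsEmpty.forall_iff,
      implies_true, and_true, Tup.gN_1, Tup.gN_2, Tup.gN_3, Tup.gN_4, Tup.gN_5, Tup.gN_6, Tup.gN_7, Tup.gN_8, Tup.gN_9,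
      Tup.gN_10, Tup.gN_11, Tup.gN_12]
    exact h

theorem sat00_of (hB : Sat T.gN 13 iN rS4)
    (h : T.u * T.u = 1 ∧ T.s * T.s = 1 ∧ T.t * T.t = 1 ∧ T.u * T.t * T.u * T.t = 1) :
    Sat T.gN 13 iN r00 := by
  refine Sat.append hB ?_
  simp only [List.forall_mem_cons, wv_cons, wv_nil, one_mul, List.not_mem_nil, IsEmpty.forall_iff,
      implies_true, and_true, Tup.gN_1, Tup.gN_2, Tup.gN_3, Tup.gN_4, Tup.gN_5, Tup.gN_6, Tup.gN_7, Tup.gN_8, Tup.gN_9,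
      Tup.gN_10, Tup.gN_11, Tup.gN_12]
  exact h

theorem sat01_of (hB : Sat T.gN 13 iN rS4)
    (h : T.u * T.u = 1 ∧ T.s * T.s = 1 ∧ T.t * T.t = 1 ∧ T.u * T.t * T.u * T.t * T.z = 1) :
    Sat T.gN 13 iN r01 := by
  refine Sat.append hB ?_
  simp only [List.forall_mem_cons, wv_cons, wv_nil, one_mul, List.not_mem_nil, IsEmpty.forall_iff,
      implies_true, and_true, Tup.gN_1, Tup.gN_2, Tup.gN_3, Tup.gN_4, Tup.gN_5, Tup.gN_6, Tup.gN_7, Tup.gN_8, Tup.gN_9,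
      Tup.gN_10, Tup.gN_11, Tup.gN_12]
  exact h

theorem sat10_of (hB : Sat T.gN 13 iN rS4)
    (h : T.u * T.u * T.z = 1 ∧ T.s * T.s * T.z = 1 ∧ T.t * T.t * T.z = 1 ∧ T.u * T.t * T.u * T.t = 1) :
    Sat T.gN 13 iN r10 := by
  refine Sat.append hB ?_
  simp only [List.forall_mem_cons, wv_cons, wv_nil, one_mul, List.not_mem_nil, IsEmpty.forall_iff,
      implies_true, and_true, Tup.gN_1, Tup.gN_2, Tup.gN_3, Tup.gN_4, Tup.gN_5, Tup.gN_6, Tup.gN_7, Tup.gN_8, Tup.gN_9,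
      Tup.gN_10, Tup.gN_11, Tup.gN_12]
  exact h

theorem sat11_of (hB : Sat T.gN 13 iN rS4)
    (h : T.u * T.u * T.z = 1 ∧ T.s * T.s * T.z = 1 ∧ T.t * T.t * T.z = 1 ∧ T.u * T.t * T.u * T.t * T.z = 1) :
    Sat T.gN 13 iN r11 := by
  refine Sat.append hB ?_
  simp only [List.forall_mem_cons, wv_cons, wv_nil, one_mul, List.not_mem_nil, IsEmpty.forall_iff,
      implies_true, and_true, Tup.gN_1, Tup.gN_2, Tup.gN_3, Tup.gN_4, Tup.gN_5, Tup.gN_6, Tup.gN_7, Tup.gN_8, Tup.gN_9,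
      Tup.gN_10, Tup.gN_11, Tup.gN_12]
  exact h

theorem satQ_of_satB {R : List (List ℕ)} (h : Sat T.gN 13 iN (rS4 ++ R)) : Sat T.gQ 7 iM rQ :=
  Sat.congr' (h.mono (R' := rS4) le_rfl fun _ hr => List.mem_append_left _ hr)
    (fun l hl => by interval_cases l <;> rfl) (by decide +kernel)

theorem cardB_le {g : ℕ → G} {R : List (List ℕ)} (hg : Sat g 13 iN (rS4 ++ R)) :
    Finite (closure {x | ∃ l ∈ [1, 2, 3, 4, 5, 6], g l = x}) ∧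
      Nat.card (closure {x | ∃ l ∈ [1, 2, 3, 4, 5, 6], g l = x}) ≤ 32 :=
  cardQ_le (Sat.congr' (hg.mono (R' := rS4) le_rfl fun _ hr => List.mem_append_left _ hr)
    (fun _ _ => rfl) (by decide +kernel))

namespace Tup

variable (T)

/-- a Sylow subgroup -/
def sS : Subgroup G := sub T.gN [[6], [1], [11, 7], [10, 11, 7, 9], [5, 11, 7, 5], [5, 10, 11, 7, 9, 5], [7], [5]]

/-- the subgroup of order 64 -/
def sT : Subgroup G := sub T.gN [[6], [1], [11, 7], [10, 11, 7, 9], [5, 11, 7, 5], [5, 10, 11, 7, 9, 5]]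

/-- the first elementary abelian subgroup -/
def sF : Subgroup G := sub T.gN [[6], [1], [11, 7], [10, 11, 7, 9]]

/-- the second elementary abelian subgroup -/
def sF' : Subgroup G := sub T.gN [[6], [1], [5, 11, 7, 5], [5, 10, 11, 7, 9, 5]]

/-- the normal four-group -/
def sV : Subgroup G := sub T.gN [[6], [1]]

/-- the first maximal subgroup -/
def sM1 : Subgroup G := sub T.gN [[6], [1], [11, 7], [10, 11, 7, 9], [5, 11, 7, 5], [5, 10, 11, 7, 9, 5], [7]]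

/-- the second maximal subgroup -/
def sM2 : Subgroup G := sub T.gN [[6], [1], [11, 7], [10, 11, 7, 9], [5, 11, 7, 5], [5, 10, 11, 7, 9, 5], [5]]

end Tup

/-- Facts for the types that occur. -/
structure Big (T : Tup G) : Prop where
  P : ∀ w ∈ T.sN, w * w = 1 → (∃ y ∈ T.sN, y * y = T.z ∧ y * w = w * y)
  sq : ∀ y ∈ T.sN, (y * y) * (y * y) = 1 → (∃ c ∈ T.sT, (y * y) = c)
  leS : (∃ c ∈ T.sS, T.B = c) ∧ (∃ c ∈ T.sS, T.C = c) ∧ (∃ c ∈ T.sS, T.D = c)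
  centE : ∀ c ∈ T.sT, (∀ r ∈ T.sS, r * T.E = T.E * r → r * c = c * r) → (c = 1 ∨ c = T.z)
  centU : ∀ c ∈ T.sT, (∀ r ∈ T.sS, r * T.u = T.u * r → r * c = c * r) → (c = 1 ∨ c = T.z)
  centG : ∀ c ∈ T.sT, (∀ r ∈ T.sS, r * T.u * T.E = T.u * T.E * r → r * c = c * r) → (c = 1 ∨ c = T.z)
  ncE : ∀ m ∈ T.sM1, m * m = T.E * T.E → (∀ c ∈ T.sN, ¬ c * T.E = m * c)
  ncU : ∀ m ∈ T.sM2, m * m = T.u * T.u → (∀ c ∈ T.sN, ¬ c * T.u = m * c)
  ncG : ∀ m ∈ T.sM2, m * m = T.u * T.E * T.u * T.E → (∀ c ∈ T.sN, ¬ c * T.u * T.E = m * c)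
  cos : ∀ x ∈ T.sS, ∃ c ∈ T.sT, x = c ∨ x = T.E * c ∨ x = T.u * c ∨ x = T.u * T.E * c
  sqF : ∀ x ∈ T.sF, x * x = 1
  sqF' : ∀ x ∈ T.sF', x * x = 1
  inf : ∀ x ∈ T.sF, ∀ y ∈ T.sF', x = y → (∃ c ∈ T.sV, x = c)
  comm : ∀ x ∈ T.sF, ∀ y ∈ T.sF', ∃ c ∈ T.sV, x * y = c * y * x
  nondeg : ∀ x ∈ T.sF, ∀ y ∈ T.sF', x * y = y * x → ((∃ c ∈ T.sV, x = c) ∨ (∃ c ∈ T.sV, y = c))
  swap : ∀ x ∈ T.sF, ∃ y ∈ T.sF', T.E * x = y * T.E
  sqs : T.E * T.E = 1 ∧ (T.u * T.u = 1 ∨ T.u * T.u = T.z) ∧ (T.u * T.E * T.u * T.E = 1 ∨ T.u * T.E * T.u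
    * T.E = T.z)
  der : (∃ p q : G, p * q = T.z * q * p) ∧
    (∃ p q : G, p * q = T.A * q * p) ∧
    (∃ p q : G, p * q = T.u * T.t * q * p) ∧
    (∃ p q : G, p * q = T.s * T.u * T.t * T.s⁻¹ * q * p) ∧
    (∃ p q : G, p * q = T.E * T.u * T.t * T.E * q * p) ∧
    (∃ p q : G, p * q = T.E * T.s * T.u * T.t * T.s⁻¹ * T.E * q * p)
  card : Nat.card T.sN = 768 ∧ Nat.card T.sS = 256 ∧ Nat.card T.sF = 16 ∧ Nat.card T.sF' = 16 ∧
    Nat.card T.sV = 4 ∧ Nat.card T.sM1 = 128 ∧ Nat.card T.sM2 = 128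

/-- Facts for the types in which the central involution is isolated. -/
structure Small (T : Tup G) : Prop where
  P : ∀ w ∈ T.sN, w * w = 1 → (∃ y ∈ T.sN, y * y = T.z ∧ y * w = w * y)
  sq : ∀ y ∈ T.sN, (y * y) * (y * y) = 1 → ((y * y) = 1 ∨ (y * y) = T.z ∨ (y * y) = T.A ∨ (y * y) = T.A
    * T.z)
  sqA : ∀ p ∈ T.sN, p * p = T.A → (∀ q ∈ T.sN, q * q = T.A → (p * q * p * q = 1 ∨ p * q * p * q = T.A))
  sqAz : ∀ p ∈ T.sN, p * p = T.A * T.z → (∀ q ∈ T.sN, q * q = T.A * T.z → (p * q * p * q = 1 ∨ p * q * p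
    * q = T.A * T.z))
  wit : ∃ p ∈ T.sN, p * p = T.z ∧ p * T.A = T.A * p ∧ (∃ q ∈ T.sN, q * q = T.z ∧ q * T.A = T.A * q ∧ ¬ p
    * q * p * q = 1 ∧ ¬ p * q * p * q = T.z)
  card : Nat.card T.sN = 768

end Cfsg.Lib.Spor.HJ
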