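import Cfsg.Agent.AutL34.Five
import Cfsg.Agent.AutL34.Sign
import Cfsg.Agent.AutL34.M00
import Cfsg.Agent.AutL34.M01
import Cfsg.Agent.AutL34.M10
import Cfsg.Agent.AutL34.M11

/-! An involution centralizer `2^(1+4).S₄`: standard generators. -/

set_option autoImplicit false

namespace Cfsg.Lib.Spor.HJ

open Subgroup Bulk PK WF Cfsg.Lib.Local Cfsg.Lib.Solv

variable {G : Type*} [Group G] {T : Tup G}

theorem a_ne (hz : T.z ≠ 1) (hs : Sat T.gQ 7 iM rQ) (i : Fin 5) : T.a i ≠ 1 ∧ T.a i ≠ T.z := by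
  have hne := q_ne (embQ hs hz)
  fin_cases i <;> simp [Tup.a, hne]

theorem exists_pi [Finite G] (h : PreLX T.sQ T.z) (hs : Sat T.gQ 7 iM rQ) :
    ∃ π : centralizer ({T.z} : Set G) →* Equiv.Perm (Fin 5),
      (∀ (c : centralizer ({T.z} : Set G)) i, T.R c i (π c i)) ∧
      (∀ (c : centralizer ({T.z} : Set G)) i j, T.R c i j → π c i = j) ∧
      π.ker = T.sQ.subgroupOf _ := by
  have he := embQ hs h.ne_one
  have hne := q_ne he
  have n1 := a_ne h.ne_one hs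
  have n2 : ∀ i j, T.a i = T.a j ∨ T.a i = T.a j * T.z → i = j := fun i j => by
    fin_cases i <;> fin_cases j <;> simp [Tup.a, hne]
  have hz := h.mul_self
  have ex : ∀ (c : centralizer ({T.z} : Set G)) i, ∃ j, T.R c i j := fun c i => by
    have e := h.conj_eq (h.norm c.2)
    rcases q_inv he _ (conj_mem_of_mem_normalizer (h.norm c.2) (a_mem i)) (by
      rw [conj_mul, a_sq hs, mul_one, mul_inv_cancel]) with
      e1 | e1 | e1 | e1 | e1 | e1 | e1 | e1 | e1 | e1 | e1 | e1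
    · exact absurd (by simpa using e1) (n1 i).1
    · exact absurd (by simpa using e1.trans e.symm) (n1 i).2
    exacts [⟨0, Or.inl e1⟩, ⟨0, Or.inr e1⟩, ⟨1, Or.inl e1⟩, ⟨1, Or.inr e1⟩, ⟨2, Or.inl e1⟩,
      ⟨2, Or.inr e1⟩, ⟨3, Or.inl e1⟩, ⟨3, Or.inr e1⟩, ⟨4, Or.inl e1⟩, ⟨4, Or.inr e1⟩]
  have un : ∀ c i j k, T.R c i j → T.R c i k → j = k := fun c i j k h1 h2 => n2 j k (by
    rcases h1 with h1 | h1 <;> rcases h2 with h2 | h2
    · exact Or.inl (h1.symm.trans h2)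
    · exact Or.inr (h1.symm.trans h2)
    · exact Or.inr (by rw [← h2, h1, mul_assoc, hz, mul_one])
    · exact Or.inl (mul_right_cancel (h1.symm.trans h2)))
  have cp : ∀ (c : centralizer ({T.z} : Set G)) d i j k, T.R d i j → T.R c j k →
      T.R (c * d) i k := fun c d i j k h1 h2 => by
    have e := h.conj_eq (h.norm c.2)
    have e1 : c * d * T.a i * (c * d)⁻¹ = c * (d * T.a i * d⁻¹) * (c : G)⁻¹ := by group
    rw [Tup.R, e1]
    rcases h1 with h1 | h1 <;> rw [h1]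
    · exact h2
    · rw [← conj_mul, e]
      rcases h2 with h2 | h2 <;> rw [h2]
      · exact Or.inr rfl
      · exact Or.inl (by rw [mul_assoc, hz, mul_one])
  choose p hp using ex
  let π : centralizer ({T.z} : Set G) →* Equiv.Perm (Fin 5) := MonoidHom.toHomPerm
    { toFun := p
      map_one' := funext fun i => un _ i _ _ (hp 1 i) (Or.inl (by simp; rfl))
      map_mul' := fun c d => funext fun i => un _ i _ _ (hp (c * d) i)
        (cp c d i _ _ (hp d i) (hp c _)) }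
  refine ⟨π, hp, fun c i j e => un c i _ _ (hp c i) e, ?_⟩
  ext c
  rw [MonoidHom.mem_ker, mem_subgroupOf]
  constructor
  · intro e
    have e1 : ∀ i, T.a i ∈ h.fixMod (h.norm c.2) := fun i => ⟨a_mem i, h.mem_iff.2 (by
      have := hp c i
      rw [show p c i = i from congrArg (fun f : Equiv.Perm (Fin 5) => f i) e] at this
      rcases this with e2 | e2 <;> rw [e2]
      · exact Or.inl (mul_inv_cancel _)
      · exact Or.inr (by rw [h.central _ (a_mem i), mul_inv_cancel_right]))⟩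
    refine h.largeSymp.mem_of_comm c c.2 fun q hq => (sub_le (H := h.fixMod (h.norm c.2))
      (fun L hL => ?_) hq).2
    fin_cases hL <;> simp only [wv_cons, wv_nil, one_mul]
    exacts [e1 0, e1 1, e1 2, e1 3, e1 4, ⟨h.mem, by
      rw [Tup.gQ_6, h.conj_eq (h.norm c.2), mul_inv_cancel]; exact one_mem _⟩]
  · intro e
    refine Equiv.ext fun i => un c i _ _ (hp c i) ?_
    rcases h.comm_or e (a_mem i) with e1 | e1
    · exact Or.inl (by rw [e1, mul_inv_cancel_right]; rfl)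
    · exact Or.inr (by rw [e1, ← h.central _ (a_mem i)]; rfl)

theorem fix_of_rel : ∀ x : Equiv.Perm (Fin 5), x * x * (x * x) = 1 → x * x ≠ 1 →
    ∀ y : Equiv.Perm (Fin 5), y * y = 1 → x * y * (x * y) * (x * y) = 1 →
      ∃ i, x i = i ∧ y i = i := by decide +kernel

theorem exists_fix [Finite G] (h : PreLX T.sQ T.z) (hs : Sat T.gQ 7 iM rQ)
    (ε : centralizer ({T.z} : Set G) →* Equiv.Perm (Fin 4)) (h1 : Function.Surjective ε)
    (h2 : ε.ker = T.sQ.subgroupOf _) : ∃ i, ∀ c ∈ centralizer ({T.z} : Set G), T.R c i i := by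
  obtain ⟨π, p1, -, p2⟩ := exists_pi h hs
  have k : ∀ c, π c = 1 ↔ ε c = 1 := fun c => by
    rw [← MonoidHom.mem_ker, ← MonoidHom.mem_ker, p2, h2]
  obtain ⟨x, hx⟩ := h1 (finRotate 4)
  obtain ⟨y, hy⟩ := h1 (Equiv.swap 0 (finRotate 4 0))
  obtain ⟨i, e1, e2⟩ := fix_of_rel (π x) (by
      simp only [← map_mul]; rw [k]; simp only [map_mul, hx]; decide) (by
      rw [← map_mul, Ne, k, map_mul, hx]; decide) (π y) (by
      rw [← map_mul, k, map_mul, hy]; decide) (by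
      simp only [← map_mul]; rw [k]; simp only [map_mul, hx, hy]; decide)
  let K := (MulAction.stabilizer (Equiv.Perm (Fin 5)) i).comap π
  have hK : K.map ε = ⊤ := by
    rw [eq_top_iff, ← Equiv.Perm.closure_cycle_adjacent_swap (isCycle_finRotate (n := 2))
      support_finRotate 0, closure_le]
    rintro _ (rfl | rfl)
    exacts [⟨x, e1, hx⟩, ⟨y, e2, hy⟩]
  refine ⟨i, fun c hc => ?_⟩
  obtain ⟨d, hd, e⟩ : ε ⟨c, hc⟩ ∈ K.map ε := hK ▸ mem_top _
  have e3 : π (d⁻¹ * ⟨c, hc⟩) = 1 := (k _).2 (by rw [map_mul, map_inv, e, inv_mul_cancel])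
  rw [map_mul, map_inv, inv_mul_eq_one] at e3
  have := p1 ⟨c, hc⟩ i
  rwa [← e3, show π d i = i from hd] at this

theorem exists_act0 [Finite G] (h : PreLX T.sQ T.z) (hs : Sat T.gQ 7 iM rQ)
    (hc : Nat.card (centralizer ({T.z} : Set G)) = 768)
    (h0 : ∀ c ∈ centralizer ({T.z} : Set G), T.R c 0 0) {σ : Equiv.Perm (Fin 5)} (hσ : σ 0 = 0) :
    ∃ c ∈ centralizer ({T.z} : Set G), ∀ i, T.R c i (σ i) := by
  obtain ⟨π, p1, p2, p3⟩ := exists_pi h hs
  have h1 := π.ker.card_mul_index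
  rw [index_ker, p3, Nat.card_congr (subgroupOfEquivOfLe h.le_cent).toEquiv,
    card_sQ (embQ hs h.ne_one), hc] at h1
  have h2 := (MulAction.stabilizer (Equiv.Perm (Fin 5)) (0 : Fin 5)).card_mul_index
  rw [MulAction.index_stabilizer_of_transitive, Nat.card_perm, Nat.card_fin] at h2
  have h3 : π.range = MulAction.stabilizer (Equiv.Perm (Fin 5)) (0 : Fin 5) :=
    eq_of_le_of_card_ge (by rintro _ ⟨c, rfl⟩; exact p2 c 0 0 (h0 c c.2))
      (by simp only [Nat.factorial] at h2; omega)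
  obtain ⟨c, rfl⟩ : σ ∈ π.range := h3 ▸ hσ
  exact ⟨c, c.2, p1 c⟩

/-- `c` centralizes `z` and permutes the five involutions as `σ` does, up to the factor `z` -/
def Tup.Act2 (T : Tup G) (c : G) (σ : Fin 5 → Fin 5) : Prop :=
  c * T.z = T.z * c ∧ ∀ i, c * T.a i = T.a (σ i) * T.z * c

theorem Tup.Act2.mul (hz : T.z * T.z = 1) {c d : G} {σ τ : Fin 5 → Fin 5} (h : T.Act2 c σ)
    (h' : T.Act2 d τ) : T.Act (c * d) (σ ∘ τ) :=
  ⟨by rw [mul_assoc, h'.1, ← mul_assoc, h.1, mul_assoc], fun i => by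
    calc c * d * T.a i = c * T.a (τ i) * T.z * d := by rw [mul_assoc, h'.2]; group
      _ = T.a (σ (τ i)) * T.z * (c * T.z) * d := by rw [h.2]; group
      _ = T.a (σ (τ i)) * (T.z * T.z) * c * d := by rw [h.1]; group
      _ = _ := by rw [hz, mul_one, mul_assoc]; rfl⟩

theorem Tup.Act2.mul_mem (h : PreLX T.sQ T.z) {c e : G} {σ : Fin 5 → Fin 5} (hc : T.Act2 c σ)
    (he : e ∈ zpowers T.z) : T.Act2 (c * e) σ :=
  ⟨by rw [mul_assoc, ← h.comm_of_mem he h.mem, ← mul_assoc, hc.1, mul_assoc], fun i => by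
    rw [mul_assoc, ← h.comm_of_mem he (a_mem i), ← mul_assoc, hc.2, mul_assoc]⟩

theorem exists_act2 [Finite G] (h : PreLX T.sQ T.z) (hs : Sat T.gQ 7 iM rQ)
    (hc : Nat.card (centralizer ({T.z} : Set G)) = 768)
    (h0 : ∀ c ∈ centralizer ({T.z} : Set G), T.R c 0 0) {σ : Equiv.Perm (Fin 5)} (hσ : σ 0 = 0)
    {τ : Fin 5 → Fin 5} (e : ∀ i, σ i = τ i)
    (H : ∀ a ∈ T.sQ, (a = T.a (τ 0) ∨ a = T.a (τ 0) * T.z) → ∀ b ∈ T.sQ,
      (b = T.a (τ 1) ∨ b = T.a (τ 1) * T.z) → ∀ c ∈ T.sQ, (c = T.a (τ 2) ∨ c = T.a (τ 2) * T.z) →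
      ∀ d ∈ T.sQ, (d = T.a (τ 3) ∨ d = T.a (τ 3) * T.z) → ∀ e ∈ T.sQ,
      (e = T.a (τ 4) ∨ e = T.a (τ 4) * T.z) → a * b * c * d * e = 1 → ∃ q ∈ T.sQ,
      q * a = T.a (τ 0) * T.z * q ∧ q * b = T.a (τ 1) * T.z * q ∧ q * c = T.a (τ 2) * T.z * q ∧
      q * d = T.a (τ 3) * T.z * q ∧ q * e = T.a (τ 4) * T.z * q) : ∃ c, T.Act2 c τ := by
  obtain ⟨c, hc, hR⟩ := exists_act0 h hs hc h0 hσ
  simp only [e] at hR
  have m := fun i => conj_mem_of_mem_normalizer (h.norm hc) (a_mem (T := T) i)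
  obtain ⟨q, hq, e⟩ := H _ (m 0) (hR 0) _ (m 1) (hR 1) _ (m 2) (hR 2) _ (m 3) (hR 3) _ (m 4) (hR 4)
    (by
      have := hs.rel [5, 4, 3, 2, 1] (by decide)
      simp only [wv_cons, wv_nil, one_mul] at this
      rw [conj_mul, conj_mul, conj_mul, conj_mul]
      exact (congrArg (fun x => c * x * c⁻¹) this).trans (by simp))
  have : ∀ i, q * (c * T.a i * c⁻¹) = T.a (τ i) * T.z * q := fun i => by
    fin_cases i
    exacts [e.1, e.2.1, e.2.2.1, e.2.2.2.1, e.2.2.2.2]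
  refine ⟨q * c, mem_centralizer_singleton_iff.1 (mul_mem (h.le_cent hq) hc), fun i => ?_⟩
  rw [← mul_assoc, ← this]; group

theorem exists_types [Finite G] {Q : Subgroup G} {z : G} (h : PreLX Q z) (hQ : Nat.card Q = 32)
    (h8 : NoE8 Q z) (hc : Nat.card (centralizer ({z} : Set G)) = 768)
    (ε : centralizer ({z} : Set G) →* Equiv.Perm (Fin 4)) (h1 : Function.Surjective ε)
    (h2 : ε.ker = Q.subgroupOf _) : ∃ T : Tup G, T.z = z ∧ T.sQ = Q ∧ Sat T.gQ 7 iM rQ ∧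
      T.sN = centralizer {z} ∧ (Big T ∨ Small T) := by
  obtain ⟨T, rfl, hs, rfl, h0⟩ : ∃ T : Tup G, T.z = z ∧ Sat T.gQ 7 iM rQ ∧ T.sQ = Q ∧
      ∀ c ∈ centralizer ({z} : Set G), T.R c 0 0 := by
    obtain ⟨a, ha, a2, ha'⟩ := exists_inv h hQ
    obtain ⟨T, rfl, -, hs, rfl⟩ := exists_satQ_of h hQ h8 ha a2 ha'
    obtain ⟨i, hi⟩ := exists_fix h hs ε h1 h2
    have := a_ne h.ne_one hs i
    obtain ⟨T', e1, e2, hs', e3⟩ := exists_satQ_of h hQ h8 (a_mem i) (a_sq hs i)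
      fun e => (h.mem_iff.1 e).elim this.1 this.2
    refine ⟨T', e1, hs', e3, fun c hc => ?_⟩
    have := hi c hc
    rwa [Tup.R, ← e2, ← e1] at this
  have he := embQ hs h.ne_one
  have hz := h.mul_self
  obtain ⟨u1, hu1⟩ := exists_act2 h hs hc h0 (σ := Equiv.swap 1 2) (by decide)
    (τ := ![0, 2, 1, 3, 4]) (by decide) (q_odd_u he)
  obtain ⟨s, hs1⟩ := exists_act2 h hs hc h0 (σ := Equiv.swap 2 3) (by decide)
    (τ := ![0, 1, 3, 2, 4]) (by decide) (q_odd_s he)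
  obtain ⟨t1, ht1⟩ := exists_act2 h hs hc h0 (σ := Equiv.swap 3 4) (by decide)
    (τ := ![0, 1, 2, 4, 3]) (by decide) (q_odd_t he)
  have p3 : ∀ x : G, x ^ 3 = x * x * x := fun x => by rw [pow_succ, sq]
  have sw : ∀ x y : G, (x * y) ^ 3 = 1 → (y * x) ^ 3 = 1 := fun x y e => by
    rw [show y * x = x⁻¹ * (x * y) * x⁻¹⁻¹ by group, conj_pow, e]; simp
  obtain ⟨u, hu, u3⟩ : ∃ u, T.Act2 u ![0, 2, 1, 3, 4] ∧ (u * s) ^ 3 = 1 := by
    have : (u1 * s) ^ 3 ∈ zpowers T.z := by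
      have := hu1.mul hz hs1
      rw [p3]; exact ((this.mul this).mul this).mem h (by decide)
    exact ⟨_, hu1.mul_mem h this, cube_fix h.ord hu1.1 hs1.1 this⟩
  obtain ⟨t, ht, t3⟩ : ∃ t, T.Act2 t ![0, 1, 2, 4, 3] ∧ (t * s) ^ 3 = 1 := by
    have : (t1 * s) ^ 3 ∈ zpowers T.z := by
      have := ht1.mul hz hs1
      rw [p3]; exact ((this.mul this).mul this).mem h (by decide)
    exact ⟨_, ht1.mul_mem h this, cube_fix h.ord ht1.1 hs1.1 this⟩
  have r : ∀ {c : G} {σ : Fin 5 → Fin 5}, T.Act2 c σ → ∀ i,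
      c * T.a i * c⁻¹ * T.a (σ i) * T.z = 1 := fun hc i => by
    rw [hc.2, mul_inv_cancel_right, mul_assoc (T.a _), ← h.central _ (a_mem _), ← mul_assoc,
      a_sq hs, one_mul, hz]
  have rz : ∀ {c : G} {σ : Fin 5 → Fin 5}, T.Act2 c σ → c * T.z * c⁻¹ * T.z = 1 :=
    fun hc => by rw [hc.1, mul_inv_cancel_right, hz]
  have ma : ∀ i, T.a i ∈ centralizer ({T.z} : Set G) := fun i => h.le_cent (a_mem i)
  have mz : T.z ∈ centralizer ({T.z} : Set G) := h.le_cent h.mem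
  have mu := mem_centralizer_singleton_iff.2 hu.1
  have ms := mem_centralizer_singleton_iff.2 hs1.1
  have mt := mem_centralizer_singleton_iff.2 ht.1
  let T' : Tup G := { T with u := u, s := s, t := t }
  have q3 : ∀ x y : G, (x * y) ^ 3 = x * y * x * y * x * y := fun x y => by rw [p3]; group
  have hB : Sat T'.gN 13 iN rS4 := satB_of hs ⟨r hu 0, r hu 1, r hu 2, r hu 3, r hu 4, r hs1 0,
    r hs1 1, r hs1 2, r hs1 3, r hs1 4, r ht 0, r ht 1, r ht 2, r ht 3, r ht 4, rz hu, rz hs1,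
    rz ht, q3 u s ▸ u3, q3 s t ▸ sw _ _ t3⟩
  have hle : T'.sN ≤ centralizer {T.z} := sub_le fun L hL => by
    fin_cases hL <;> simp only [wv_cons, wv_nil, one_mul]
    exacts [ma 0, ma 1, ma 2, ma 3, ma 4, mz, mu, inv_mem mu, ms, inv_mem ms, mt, inv_mem mt]
  suffices H : Big T' ∨ Small T' from ⟨T', rfl, rfl, hs, eq_of_le_of_card_ge hle
    (hc.trans (H.elim (fun a => a.card.1) fun a => a.card).symm).le, H⟩
  have zz : ∀ {x : G}, x = T.z → x * T.z = 1 := fun e => e ▸ hz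
  have ut : u * t * u * t = 1 ∨ u * t * u * t = T.z := by
    have := hu.mul hz ht
    rw [mul_assoc (u * t)]
    exact h.mem_iff.1 ((this.mul this).mem h (by decide))
  rcases h.mem_iff.1 ((hs1.mul hz hs1).mem h (by decide)) with e1 | e1
  · have e2 : u * u = 1 := (h.mem_iff.1 ((hu.mul hz hu).mem h (by decide))).resolve_right
      fun e => h.ne_one (sq_eq_sq hz hs1.1 hu.1 (sw _ _ u3) e1 e)
    have e3 : t * t = 1 := (h.mem_iff.1 ((ht.mul hz ht).mem h (by decide))).resolve_right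
      fun e => h.ne_one (sq_eq_sq hz hs1.1 ht.1 (sw _ _ t3) e1 e)
    exact ut.imp (fun e => big00 (sat00_of hB ⟨e2, e1, e3, e⟩) h.ne_one)
      fun e => small01 (sat01_of hB ⟨e2, e1, e3, zz e⟩) h.ne_one
  · have e2 : u * u = T.z := (h.mem_iff.1 ((hu.mul hz hu).mem h (by decide))).resolve_left
      fun e => h.ne_one (sq_eq_sq hz hu.1 hs1.1 u3 e e1)
    have e3 : t * t = T.z := (h.mem_iff.1 ((ht.mul hz ht).mem h (by decide))).resolve_left
      fun e => h.ne_one (sq_eq_sq hz ht.1 hs1.1 t3 e e1)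
    exact ut.imp (fun e => big10 (sat10_of hB ⟨zz e2, zz e1, zz e3, e⟩) h.ne_one)
      fun e => small11 (sat11_of hB ⟨zz e2, zz e1, zz e3, zz e⟩) h.ne_one

end Cfsg.Lib.Spor.HJ
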